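/-
Fixed points of the elements of a solvable group on a non-central minimal normal subgroup.
-/
import Cfsg.Agent.Core.MinimalNormal
import Mathlib.GroupTheory.Index

/-!
For a non-central minimal normal `p`-subgroup `W` of a solvable group some element fixes at most
the square root of `W`, and the fixed points of `h` and `h * a` together are bounded by those of `a`.
-/

set_option autoImplicit false
set_option linter.style.haveILetI false
set_option linter.unusedSectionVars false

namespace Cfsg.Agent.ClassSize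

open Cfsg Cfsg.Agent
open scoped commutatorElement

variable {H : Type*} [Group H] [Finite H]

/-- The fixed points of `h` inside `U`. -/
def fix (U : Subgroup H) (h : H) : Subgroup H := U ⊓ Subgroup.centralizer ({h} : Set H)

theorem mem_fix {U : Subgroup H} {h x : H} : x ∈ fix U h ↔ x ∈ U ∧ h * x = x * h := by
  simp [fix, Subgroup.mem_centralizer_singleton_iff, eq_comm]

theorem fix_le (U : Subgroup H) (h : H) : fix U h ≤ U := inf_le_left

/-- `v_p` of the order of the fixed points. -/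
noncomputable def fixExp (p : ℕ) (U : Subgroup H) (h : H) : ℕ :=
  (Nat.card (fix U h)).factorization p

theorem card_fix_mul_le (U : Subgroup H) (h a : H) :
    Nat.card (fix U h) * Nat.card (fix U (h * a)) ≤ Nat.card (fix U a) * Nat.card U := by
  set A := fix U h
  set B := fix U (h * a)
  have hAB : A ⊓ B ≤ fix U a := by
    rintro x ⟨hxA, hxB⟩
    obtain ⟨hxU, hxh⟩ := mem_fix.1 hxA
    obtain ⟨-, hxha⟩ := mem_fix.1 hxB
    refine mem_fix.2 ⟨hxU, mul_left_cancel (a := h) ?_⟩
    calc h * (a * x) = x * (h * a) := by rw [← mul_assoc, hxha]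
      _ = h * (x * a) := by rw [← mul_assoc, ← hxh, mul_assoc]
  have h1 : Nat.card (A ⊓ B : Subgroup H) * B.relIndex A = Nat.card A := by
    have := Subgroup.relIndex_mul_relIndex ⊥ (A ⊓ B) A bot_le inf_le_left
    rwa [Subgroup.relIndex_bot_left, Subgroup.relIndex_bot_left, Subgroup.inf_relIndex_left] at this
  have h2 : Nat.card B * B.relIndex U = Nat.card U := by
    have := Subgroup.relIndex_mul_relIndex ⊥ B U bot_le (fix_le U _)
    rwa [Subgroup.relIndex_bot_left, Subgroup.relIndex_bot_left] at this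
  have h3 : B.relIndex A ≤ B.relIndex U :=
    Subgroup.relIndex_le_of_le_right (fix_le U h) Subgroup.index_ne_zero_of_finite
  calc Nat.card A * Nat.card B = Nat.card (A ⊓ B : Subgroup H) * (Nat.card B * B.relIndex A) := by
        rw [← h1]; ring
    _ ≤ Nat.card (fix U a) * (Nat.card B * B.relIndex U) :=
        Nat.mul_le_mul (Subgroup.card_le_of_le hAB) (Nat.mul_le_mul_left _ h3)
    _ = _ := by rw [h2]

variable {p : ℕ} [hp : Fact p.Prime]

theorem card_eq_pow {U : Subgroup H} (hU : IsPGroup p U) :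
    Nat.card U = p ^ (Nat.card U).factorization p := by
  obtain ⟨n, hn⟩ := IsPGroup.iff_card.1 hU
  rw [hn, Nat.Prime.factorization_pow hp.out, Finsupp.single_eq_same]

theorem fixExp_le {U : Subgroup H} (h : H) :
    fixExp p U h ≤ (Nat.card U).factorization p :=
  (Nat.factorization_le_iff_dvd Nat.card_pos.ne' Nat.card_pos.ne').2
    (Subgroup.card_dvd_of_le (fix_le U h)) p

theorem fixExp_add_le {U : Subgroup H} (hU : IsPGroup p U) (h a : H) :
    fixExp p U h + fixExp p U (h * a) ≤ (Nat.card U).factorization p + fixExp p U a := by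
  have hle := card_fix_mul_le U h a
  rw [card_eq_pow (hU.to_le (fix_le U h)), card_eq_pow (hU.to_le (fix_le U (h * a))),
    card_eq_pow (hU.to_le (fix_le U a)), card_eq_pow hU, ← pow_add, ← pow_add] at hle
  have := (Nat.pow_le_pow_iff_right hp.out.one_lt).1 hle
  simp only [fixExp]
  omega

variable {W : Subgroup H}

theorem conj_fix {A : Subgroup H} (hW : W.Normal) {U : Subgroup H} (hUW : U ≤ W)
    (hU : ∀ a ∈ A, ∀ x ∈ U, a * x * a⁻¹ ∈ U)
    (hab : ∀ a ∈ A, ∀ b ∈ A, ∀ x ∈ W, ⁅a, b⁆ * x = x * ⁅a, b⁆) {a b : H} (ha : a ∈ A)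
    (hb : b ∈ A) {x : H} (hx : x ∈ fix U a) : b * x * b⁻¹ ∈ fix U a := by
  obtain ⟨hxU, hax⟩ := mem_fix.1 hx
  refine mem_fix.2 ⟨hU b hb x hxU, ?_⟩
  have hy : b * x * b⁻¹ ∈ W := hW.conj_mem x (hUW hxU) b
  have hc := hab a ha b hb _ hy
  have e1 : a * (b * x * b⁻¹) * a⁻¹ = ⁅a, b⁆ * (b * (a * x * a⁻¹) * b⁻¹) * ⁅a, b⁆⁻¹ := by
    simp only [commutatorElement_def]; group
  have e2 : a * x * a⁻¹ = x := by rw [hax, mul_inv_cancel_right]
  rw [e2, hc, mul_inv_cancel_right] at e1
  exact mul_inv_eq_iff_eq_mul.1 e1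

/-- Averaged over `A`, at most half of an invariant subgroup is fixed. -/
def Good (p : ℕ) (A U : Subgroup H) [Fintype A] : Prop :=
  2 * ∑ a : A, fixExp p U (a : H) ≤ Nat.card A * (Nat.card U).factorization p

/-- A minimal invariant subgroup which is not centralized is good. -/
theorem good_of_minimal {A : Subgroup H} [Fintype A] (hW : W.Normal) {U : Subgroup H} (hUW : U ≤ W)
    (hU : ∀ a ∈ A, ∀ x ∈ U, a * x * a⁻¹ ∈ U)
    (hmin : ∀ V : Subgroup H, V ≤ U → (∀ a ∈ A, ∀ x ∈ V, a * x * a⁻¹ ∈ V) → V = ⊥ ∨ V = U)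
    (hab : ∀ a ∈ A, ∀ b ∈ A, ∀ x ∈ W, ⁅a, b⁆ * x = x * ⁅a, b⁆)
    (hnc : ¬ A ≤ Subgroup.centralizer (U : Set H)) : Good p A U := by
  classical
  set K := A ⊓ Subgroup.centralizer (U : Set H) with hK
  have hval : ∀ a : A, fixExp p U (a : H) =
      if (a : H) ∈ K then (Nat.card U).factorization p else 0 := by
    intro a
    split_ifs with ha
    · unfold fixExp
      rw [le_antisymm (fix_le U _) fun x hx => mem_fix.2 ⟨hx,
        ((Subgroup.mem_centralizer_iff.1 ha.2) x hx).symm⟩]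
    · rcases hmin (fix U a) (fix_le U _) (fun b hb x hx => conj_fix hW hUW hU hab a.2 hb hx)
        with h | h
      · unfold fixExp
        rw [h, Subgroup.card_bot, Nat.factorization_one, Finsupp.zero_apply]
      · refine absurd ⟨a.2, Subgroup.mem_centralizer_iff.2 fun x hx => ?_⟩ ha
        rw [SetLike.mem_coe, ← h] at hx
        exact (mem_fix.1 hx).2.symm
  have hsum : ∑ a : A, fixExp p U (a : H) = Nat.card (K.subgroupOf A) *
      (Nat.card U).factorization p := by
    rw [Finset.sum_congr rfl fun a _ => hval a, ← Finset.sum_filter, Finset.sum_const, smul_eq_mul,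
      ← Fintype.card_subtype, ← Nat.card_eq_fintype_card]
    congr 1
  have hne : K.subgroupOf A ≠ ⊤ := fun h => hnc fun a ha =>
    (Subgroup.subgroupOf_eq_top.1 h ha).2
  have h2 := Subgroup.card_mul_index (K.subgroupOf A)
  have h3 : 2 ≤ (K.subgroupOf A).index := by
    have h4 : (K.subgroupOf A).index ≠ 1 := fun h => hne (Subgroup.index_eq_one.1 h)
    have h5 : (K.subgroupOf A).index ≠ 0 := Subgroup.index_ne_zero_of_finite
    omega
  rw [Good, hsum, ← mul_assoc]
  refine Nat.mul_le_mul_right _ ?_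
  calc 2 * Nat.card (K.subgroupOf A) ≤ (K.subgroupOf A).index * Nat.card (K.subgroupOf A) :=
        Nat.mul_le_mul_right _ h3
    _ = Nat.card A := by rw [mul_comm, h2]

theorem good_sup {A : Subgroup H} [Fintype A] {U V : Subgroup H} (hcomm : ∀ u ∈ U, ∀ v ∈ V,
    u * v = v * u) (hinf : U ⊓ V = ⊥) (hUp : IsPGroup p U) (hVp : IsPGroup p V)
    (hU : ∀ a ∈ A, ∀ x ∈ U, a * x * a⁻¹ ∈ U) (hV : ∀ a ∈ A, ∀ x ∈ V, a * x * a⁻¹ ∈ V)
    (gU : Good p A U) (gV : Good p A V) : Good p A (U ⊔ V) := by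
  classical
  have hVn : V ≤ Subgroup.normalizer (U : Set H) := fun v hv => by
    refine Subgroup.mem_normalizer_iff.2 fun x => ⟨fun hx => ?_, fun hx => ?_⟩
    · rw [← hcomm x hx v hv, mul_inv_cancel_right]
      exact hx
    · have h := hcomm _ hx v hv
      rw [inv_mul_cancel_right] at h
      rw [mul_left_cancel h]
      exact hx
  have hmem : ∀ x ∈ U ⊔ V, ∃ u ∈ U, ∃ v ∈ V, u * v = x := by
    intro x hx
    have := Subgroup.coe_mul_of_right_le_normalizer_left U V hVn
    rw [← SetLike.mem_coe, this] at hx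
    exact hx
  have hsup : IsPGroup p (U ⊔ V : Subgroup H) := hUp.to_sup_of_normal_left' hVp hVn
  have hdis : Disjoint U V := disjoint_iff.2 hinf
  have hcard : Nat.card U * Nat.card V ≤ Nat.card (U ⊔ V : Subgroup H) := by
    rw [← Nat.card_prod]
    exact Nat.card_le_card_of_injective
      (fun y : U × V => (⟨(y.1 : H) * y.2, Subgroup.mul_mem_sup y.1.2 y.2.2⟩ : (U ⊔ V : Subgroup H)))
      fun y z h => Subgroup.mul_injective_of_disjoint hdis (congrArg Subtype.val h)
  have hd : (Nat.card U).factorization p + (Nat.card V).factorization p ≤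
      (Nat.card (U ⊔ V : Subgroup H)).factorization p := by
    rw [card_eq_pow hUp, card_eq_pow hVp, card_eq_pow hsup, ← pow_add] at hcard
    exact (Nat.pow_le_pow_iff_right hp.out.one_lt).1 hcard
  have hf : ∀ a : A, fixExp p (U ⊔ V) (a : H) ≤ fixExp p U (a : H) + fixExp p V (a : H) := by
    intro a
    have hle : Nat.card (fix (U ⊔ V) (a : H)) ≤ Nat.card (fix U (a : H)) * Nat.card (fix V (a : H)) := by
      rw [← Nat.card_prod]
      have hincl : ∀ y : fix U (a : H) × fix V (a : H), (y.1 : H) * y.2 ∈ fix (U ⊔ V) (a : H) := by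
        intro y
        obtain ⟨h1, h2⟩ := mem_fix.1 y.1.2
        obtain ⟨h3, h4⟩ := mem_fix.1 y.2.2
        exact mem_fix.2 ⟨Subgroup.mul_mem_sup h1 h3, by rw [← mul_assoc, h2, mul_assoc, h4, mul_assoc]⟩
      refine Nat.card_le_card_of_surjective (fun y => ⟨_, hincl y⟩) fun x => ?_
      obtain ⟨hx, hax⟩ := mem_fix.1 x.2
      obtain ⟨u, hu, v, hv, huv⟩ := hmem _ hx
      have e : ((a : H) * u * (a : H)⁻¹) * ((a : H) * v * (a : H)⁻¹) = u * v := by
        rw [huv, show ((a : H) * u * (a : H)⁻¹) * ((a : H) * v * (a : H)⁻¹) =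
          (a : H) * (u * v) * (a : H)⁻¹ by group, huv, hax, mul_inv_cancel_right]
      have h := Subgroup.mul_injective_of_disjoint hdis
        (a₁ := (⟨_, hU a a.2 u hu⟩, ⟨_, hV a a.2 v hv⟩)) (a₂ := (⟨u, hu⟩, ⟨v, hv⟩)) e
      simp only [Prod.mk.injEq, Subtype.mk.injEq] at h
      exact ⟨(⟨u, mem_fix.2 ⟨hu, mul_inv_eq_iff_eq_mul.1 h.1⟩⟩,
        ⟨v, mem_fix.2 ⟨hv, mul_inv_eq_iff_eq_mul.1 h.2⟩⟩), Subtype.ext huv⟩
    rw [card_eq_pow (hsup.to_le (fix_le _ _)), card_eq_pow (hUp.to_le (fix_le _ _)),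
      card_eq_pow (hVp.to_le (fix_le _ _)), ← pow_add] at hle
    exact (Nat.pow_le_pow_iff_right hp.out.one_lt).1 hle
  unfold Good at gU gV ⊢
  have h1 : ∑ a : A, fixExp p (U ⊔ V) (a : H) ≤
      ∑ a : A, (fixExp p U (a : H) + fixExp p V (a : H)) := Finset.sum_le_sum fun a _ => hf a
  rw [Finset.sum_add_distrib] at h1
  have h2 := Nat.mul_le_mul_left (Nat.card A) hd
  rw [mul_add] at h2
  omega

/-- A non-central minimal normal `p`-subgroup of a solvable group has an element fixing at most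
half of it. -/
theorem exists_small_fix [Group.IsSolvable H] (hW : Core.IsMinNormal W) (hWp : IsPGroup p W)
    (hnc : ¬ W ≤ Subgroup.center H) :
    ∃ a : H, 2 * fixExp p W a ≤ (Nat.card W).factorization p := by
  classical
  haveI := hW.1
  obtain ⟨⟨hWcomm⟩⟩ := hW.isMulCommutative inferInstance
  have hwc : ∀ x ∈ W, ∀ y ∈ W, x * y = y * x := fun x hx y hy =>
    congrArg Subtype.val (hWcomm ⟨x, hx⟩ ⟨y, hy⟩)
  set C := Subgroup.centralizer (W : Set H) with hC
  haveI : C.Normal := Subgroup.normal_centralizer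
  have hCtop : C ≠ ⊤ := fun h => hnc fun w hw => Subgroup.mem_center_iff.2 fun g =>
    ((Subgroup.mem_centralizer_iff.1 (show g ∈ C by rw [h]; trivial)) w hw).symm
  haveI : Nontrivial (H ⧸ C) := QuotientGroup.nontrivial_iff.2 hCtop
  obtain ⟨Ab, hAb⟩ := Core.exists_isMinNormal (G := H ⧸ C)
  haveI := hAb.1
  obtain ⟨⟨hAbc⟩⟩ := hAb.isMulCommutative inferInstance
  set A := Ab.comap (QuotientGroup.mk' C) with hA
  haveI : A.Normal := Subgroup.Normal.comap hAb.1 _
  letI : Fintype A := Fintype.ofFinite _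
  have hab : ∀ a ∈ A, ∀ b ∈ A, ∀ x ∈ W, ⁅a, b⁆ * x = x * ⁅a, b⁆ := by
    intro a ha b hb x hx
    have h : ⁅a, b⁆ ∈ C := by
      rw [← QuotientGroup.eq_one_iff, ← QuotientGroup.mk'_apply, map_commutatorElement,
        commutatorElement_eq_one_iff_mul_comm]
      exact congrArg Subtype.val (hAbc ⟨_, ha⟩ ⟨_, hb⟩)
    exact ((Subgroup.mem_centralizer_iff.1 h) x hx).symm
  have hnA : ¬ A ≤ Subgroup.centralizer (W : Set H) := by
    intro h
    refine hAb.2.1 ((Subgroup.eq_bot_iff_forall _).2 fun q hq => ?_)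
    obtain ⟨a, rfl⟩ := QuotientGroup.mk_surjective q
    exact (QuotientGroup.eq_one_iff a).2 (h (show a ∈ A from hq))
  -- no nonzero vector is fixed by all of `A`
  have hfix : W ⊓ Subgroup.centralizer (A : Set H) = ⊥ := by
    rcases hW.2.2 _ inferInstance (inf_le_left : W ⊓ Subgroup.centralizer (A : Set H) ≤ W) with h | h
    · exact h
    · refine absurd (fun a ha => Subgroup.mem_centralizer_iff.2 fun x hx => ?_) hnA
      have hx' : x ∈ Subgroup.centralizer (A : Set H) := (inf_eq_left.1 h) hx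
      exact ((Subgroup.mem_centralizer_iff.1 hx') a ha).symm
  -- a minimal invariant subgroup
  obtain ⟨U0, ⟨hU0W, hU0bot, hU0inv⟩, hU0min⟩ := (Set.toFinite {U : Subgroup H | U ≤ W ∧ U ≠ ⊥ ∧
    ∀ a ∈ A, ∀ x ∈ U, a * x * a⁻¹ ∈ U}).exists_minimal
    ⟨W, le_rfl, hW.2.1, fun a _ x hx => hW.1.conj_mem x hx a⟩
  -- a maximal good invariant subgroup
  obtain ⟨U, ⟨hUW, hUinv, hUgood⟩, hUmax⟩ := (Set.toFinite {U : Subgroup H | U ≤ W ∧
    (∀ a ∈ A, ∀ x ∈ U, a * x * a⁻¹ ∈ U) ∧ Good p A U}).exists_maximal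
    ⟨⊥, bot_le, fun a _ x hx => by simp [Subgroup.mem_bot.1 hx],
      by simp [Good, fixExp, fix]⟩
  have hconj : ∀ g : H, ∀ x ∈ U0, g * x * g⁻¹ ∈ U := by
    intro g
    by_contra hg
    push Not at hg
    obtain ⟨x0, hx0, hx0U⟩ := hg
    set V := U0.map (MulAut.conj g).toMonoidHom with hV
    have hVmem : ∀ {x : H}, x ∈ V ↔ g⁻¹ * x * g ∈ U0 := by
      intro x
      constructor
      · rintro ⟨y, hy, rfl⟩
        simpa [mul_assoc] using hy
      · exact fun h => ⟨_, h, by simp [mul_assoc]⟩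
    have hVW : V ≤ W := fun x hx => by
      have := hW.1.conj_mem _ (hU0W (hVmem.1 hx)) g
      simpa [mul_assoc] using this
    have hVinv : ∀ a ∈ A, ∀ x ∈ V, a * x * a⁻¹ ∈ V := by
      intro a ha x hx
      rw [hVmem]
      have := hU0inv (g⁻¹ * a * g)
        (by simpa using (inferInstance : A.Normal).conj_mem a ha g⁻¹) _ (hVmem.1 hx)
      simpa [mul_assoc] using this
    have hVbot : V ≠ ⊥ := fun h => hU0bot (by
      rwa [hV, Subgroup.map_eq_bot_iff_of_injective _ (MulAut.conj g).injective] at h)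
    have hVmin : ∀ V' : Subgroup H, V' ≤ V → (∀ a ∈ A, ∀ x ∈ V', a * x * a⁻¹ ∈ V') →
        V' = ⊥ ∨ V' = V := by
      intro V' hV' hinv'
      refine or_iff_not_imp_left.2 fun hb => le_antisymm hV' fun x hx => ?_
      set V'' := V'.map (MulAut.conj g⁻¹).toMonoidHom
      have h1 : V'' ≤ U0 := by
        rintro _ ⟨y, hy, rfl⟩
        simpa [mul_assoc] using hVmem.1 (hV' hy)
      have h2 : V'' ≠ ⊥ := fun h => hb (by
        rwa [Subgroup.map_eq_bot_iff_of_injective _ (MulAut.conj g⁻¹).injective] at h)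
      have h3 : ∀ a ∈ A, ∀ x ∈ V'', a * x * a⁻¹ ∈ V'' := by
        rintro a ha _ ⟨y, hy, rfl⟩
        exact ⟨_, hinv' (g * a * g⁻¹) ((inferInstance : A.Normal).conj_mem a ha g) y hy,
          by simp [mul_assoc]⟩
      obtain ⟨y, hy, hyx⟩ := hU0min ⟨h1.trans hU0W, h2, h3⟩ h1 (hVmem.1 hx)
      have : y = x := by simpa [mul_assoc] using hyx
      exact this ▸ hy
    have hVnc : ¬ A ≤ Subgroup.centralizer (V : Set H) := fun h => hVbot (le_bot_iff.1 fun x hx => by
      rw [← hfix]
      exact ⟨hVW hx, Subgroup.mem_centralizer_iff.2 fun a ha =>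
        ((Subgroup.mem_centralizer_iff.1 (h ha)) x hx).symm⟩)
    have hVgood : Good p A V := good_of_minimal hW.1 hVW hVinv hVmin hab hVnc
    have hinf : U ⊓ V = ⊥ := by
      rcases hVmin (U ⊓ V) inf_le_right
        (fun a ha x hx => ⟨hUinv a ha x hx.1, hVinv a ha x hx.2⟩) with h | h
      · exact h
      · exact absurd ((inf_eq_right.1 h) (hVmem.2 (by simpa [mul_assoc] using hx0))) hx0U
    have hgood := good_sup (fun u hu v hv => hwc u (hUW hu) v (hVW hv)) hinf (hWp.to_le hUW)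
      (hWp.to_le hVW) hUinv hVinv hUgood hVgood
    have hinvUV : ∀ a ∈ A, ∀ x ∈ U ⊔ V, a * x * a⁻¹ ∈ U ⊔ V := by
      intro a ha x hx
      have : U ⊔ V ≤ (U ⊔ V).comap (MulAut.conj a).toMonoidHom := sup_le
        (fun y hy => Subgroup.mem_sup_left (by simpa using hUinv a ha y hy))
        (fun y hy => Subgroup.mem_sup_right (by simpa using hVinv a ha y hy))
      simpa using this hx
    have hle : U ⊔ V ≤ U := hUmax ⟨sup_le hUW hVW, hinvUV, hgood⟩ le_sup_left
    exact hx0U (hle (Subgroup.mem_sup_right (hVmem.2 (by simpa [mul_assoc] using hx0))))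
  have hU : U = W := by
    set N := Subgroup.normalClosure (U0 : Set H)
    have h1 : N ≤ W := Subgroup.normalClosure_le_normal hU0W
    rcases hW.2.2 N inferInstance h1 with h | h
    · exact absurd (le_bot_iff.1 fun x hx => h ▸ (Subgroup.subset_normalClosure hx : x ∈ N)) hU0bot
    · refine le_antisymm hUW (h ▸ ?_)
      refine (Subgroup.closure_le _).2 fun x hx => ?_
      obtain ⟨y, hy, hyx⟩ := Group.mem_conjugatesOfSet_iff.1 hx
      obtain ⟨c, rfl⟩ := isConj_iff.1 hyx
      exact hconj c y hy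
  subst hU
  by_contra hall
  push Not at hall
  have h1 : ∑ a : A, ((Nat.card U).factorization p + 1) ≤ ∑ a : A, 2 * fixExp p U (a : H) :=
    Finset.sum_le_sum fun a _ => hall a
  rw [Finset.sum_const, Finset.card_univ, ← Nat.card_eq_fintype_card, smul_eq_mul,
    ← Finset.mul_sum, mul_add, mul_one] at h1
  have hpos : 0 < Nat.card A := Nat.card_pos
  unfold Good at hUgood
  omega

end Cfsg.Agent.ClassSize
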