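/-
Going down a chief series below a quasi-primitive character: degree against class sizes.
-/
import Cfsg.Agent.ClassSize.Average
import Cfsg.Agent.Chars2.GoingDown
import Cfsg.Agent.Chars2.Correspondence
import Cfsg.Agent.Chars.PrimePowerDivisor

/-!
For a primitive character `χ` of a solvable group the average of `v_p` of the class sizes is at
least half of `v_p (χ 1)`.
-/

set_option autoImplicit false
set_option linter.style.haveILetI false
set_option linter.unusedSectionVars false

namespace Cfsg.Agent.ClassSize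

open Cfsg Cfsg.Agent
open scoped commutatorElement

universe u

variable {G : Type u} [Group G] [Fintype G]

/-- The centralizer of `g` modulo the normal subgroup `N`. -/
def centMod (N : Subgroup G) [N.Normal] (g : G) : Subgroup G :=
  (Subgroup.centralizer ({QuotientGroup.mk' N g} : Set (G ⧸ N))).comap (QuotientGroup.mk' N)

theorem mem_centMod {N : Subgroup G} [N.Normal] {g x : G} :
    x ∈ centMod N g ↔ ⁅x, g⁆ ∈ N := by
  rw [centMod, Subgroup.mem_comap, Subgroup.mem_centralizer_singleton_iff,
    ← commutatorElement_eq_one_iff_mul_comm, ← map_commutatorElement, QuotientGroup.mk'_apply,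
    QuotientGroup.eq_one_iff]

theorem centMod_bot (g : G) : centMod (⊥ : Subgroup G) g = Subgroup.centralizer ({g} : Set G) :=
  SetLike.ext fun x => by
    rw [mem_centMod, Subgroup.mem_bot, commutatorElement_eq_one_iff_mul_comm,
      Subgroup.mem_centralizer_singleton_iff]

theorem centMod_mono {N M : Subgroup G} [N.Normal] [M.Normal] (h : N ≤ M) (g : G) :
    centMod N g ≤ centMod M g := fun _ hx => mem_centMod.2 (h (mem_centMod.1 hx))

/-- The sum over the group of `v_p` of the class sizes in the quotient by `N`. -/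
noncomputable def classExpSum (p : ℕ) (N : Subgroup G) [N.Normal] : ℕ :=
  ∑ g : G, ((centMod N g).index).factorization p

theorem classExpSum_anti (p : ℕ) {N M : Subgroup G} [N.Normal] [M.Normal] (h : N ≤ M) :
    classExpSum p M ≤ classExpSum p N :=
  Finset.sum_le_sum fun g _ =>
    (Nat.factorization_le_iff_dvd Subgroup.index_ne_zero_of_finite
      Subgroup.index_ne_zero_of_finite).2 (Subgroup.index_dvd_of_le (centMod_mono h g)) p

variable {p : ℕ} [hp : Fact p.Prime]

/-- The class sizes grow along a chief factor by the index of the fixed points. -/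
theorem index_centMod_step {N M : Subgroup G} [N.Normal] [M.Normal] (hNM : N ≤ M) (g : G)
    (hWp : IsPGroup p (M.map (QuotientGroup.mk' N))) :
    ((centMod M g).index).factorization p +
        (Nat.card (M.map (QuotientGroup.mk' N))).factorization p ≤
      ((centMod N g).index).factorization p +
        fixExp p (M.map (QuotientGroup.mk' N)) (QuotientGroup.mk' N g) := by
  set π := QuotientGroup.mk' N
  set W := M.map π
  set c := centMod N g with hc
  have h1 : c.relIndex M * (c ⊔ M).index = c.index := by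
    have e : ∀ {K L : Subgroup G}, K ≤ L → Nat.card K * K.relIndex L = Nat.card L := fun {K L} h => by
      have := Subgroup.relIndex_mul_relIndex ⊥ K L bot_le h
      rwa [Subgroup.relIndex_bot_left, Subgroup.relIndex_bot_left] at this
    have a1 := e (le_sup_left : c ≤ c ⊔ M)
    have a2 := e (le_sup_right : M ≤ c ⊔ M)
    have a3 := e (inf_le_left : c ⊓ M ≤ c)
    have a4 := e (inf_le_right : c ⊓ M ≤ M)
    rw [Subgroup.relIndex_sup_right] at a2
    rw [Subgroup.inf_relIndex_left] at a3
    rw [Subgroup.inf_relIndex_right] at a4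
    have key : c.relIndex (c ⊔ M) = c.relIndex M := by
      refine mul_left_cancel₀ (Nat.card_pos (α := c)).ne' ?_
      rw [a1, ← a2, ← a4]
      conv_rhs => rw [← a3]
      ring
    have := Subgroup.relIndex_mul_index (le_sup_left : c ≤ c ⊔ M)
    rwa [key] at this
  have h2 : (centMod M g).index ∣ (c ⊔ M).index := Subgroup.index_dvd_of_le
    (sup_le (centMod_mono hNM g) fun x hx => mem_centMod.2 (by
      rw [commutatorElement_def, mul_assoc, mul_assoc]
      refine M.mul_mem hx ?_
      rw [← mul_assoc]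
      exact (inferInstance : M.Normal).conj_mem x⁻¹ (M.inv_mem hx) g))
  have h3 : c.relIndex M = (Subgroup.centralizer ({π g} : Set (G ⧸ N))).relIndex W := by
    rw [hc, centMod, Subgroup.relIndex_comap]
  have h4 : Nat.card (fix W (π g)) * c.relIndex M = Nat.card W := by
    rw [h3, fix]
    have := Subgroup.relIndex_mul_relIndex ⊥ (W ⊓ Subgroup.centralizer ({π g} : Set (G ⧸ N))) W
      bot_le inf_le_left
    rwa [Subgroup.relIndex_bot_left, Subgroup.relIndex_bot_left, Subgroup.inf_relIndex_left] at this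
  have hrel : c.relIndex M ≠ 0 := fun h => by
    have := h4; rw [h, mul_zero] at this; exact Nat.card_pos.ne' this.symm
  have h5 : (Nat.card W).factorization p = fixExp p W (π g) + (c.relIndex M).factorization p := by
    rw [← h4, Nat.factorization_mul Nat.card_pos.ne' hrel, Finsupp.add_apply, fixExp]
  have h6 := (Nat.factorization_le_iff_dvd Subgroup.index_ne_zero_of_finite
    Subgroup.index_ne_zero_of_finite).2 h2 p
  rw [← h1, Nat.factorization_mul hrel Subgroup.index_ne_zero_of_finite, Finsupp.add_apply, h5]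
  omega

variable {χ : G → ℂ}

/-- The statement carried down the chief series. -/
def Descends (p : ℕ) (χ : G → ℂ) (N : Subgroup G) [N.Normal] : Prop :=
  ∃ (θ : N → ℂ) (e : ℕ), IsIrrCharacter N θ ∧ e ≠ 0 ∧ (∀ x : N, χ x = e * θ x) ∧
    Nat.card G * e.factorization p ≤ 2 * classExpSum p N

theorem inertia_eq_top (hχ : IsIrrCharacter G χ)
    (hprim : ¬ ∃ (H : Subgroup G), H ≠ ⊤ ∧ ∃ θ : ↥H → ℂ, IsCharacter ↥H θ ∧ indFun H θ = χ)
    {N : Subgroup G} [N.Normal] [Fintype N] {θ : N → ℂ} (hθ : IsIrrCharacter N θ)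
    (hcon : classInner (fun n : N => χ n) θ ≠ 0) : Chars2.inertiaSub θ = ⊤ := by
  classical
  by_contra hne
  haveI : Fintype (Chars2.inertiaSub θ) := Fintype.ofFinite _
  obtain ⟨ψ, hψ, hind, -⟩ := Chars2.exists_correspondent
    (Chars2.le_inertiaSub (Chars.isClassFunction_irr ⟨θ, hθ⟩)) hθ rfl hχ hcon
  exact hprim ⟨_, hne, ψ, Chars.isCharacter_of_isIrr hψ, hind⟩

theorem descends_top (hχ : IsIrrCharacter G χ) : Descends p χ (⊤ : Subgroup G) := by
  refine ⟨fun x => χ x, 1, Chars.isIrrCharacter_comp_equiv hχ Subgroup.topEquiv, one_ne_zero,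
    fun x => by simp, by simp⟩

theorem descends_all [Group.IsSolvable G] (hχ : IsIrrCharacter G χ)
    (hprim : ¬ ∃ (H : Subgroup G), H ≠ ⊤ ∧ ∃ θ : ↥H → ℂ, IsCharacter ↥H θ ∧ indFun H θ = χ)
    (N : Subgroup G) [N.Normal] : Descends p χ N := by
  classical
  suffices H : ∀ n (N : Subgroup G) [N.Normal], N.index = n → Descends p χ N from H _ N rfl
  intro n
  induction n using Nat.strong_induction_on with
  | _ n ih =>
  intro N _ hn
  by_cases hNtop : N = ⊤
  · subst hNtop; exact descends_top hχ
  haveI : Nontrivial (G ⧸ N) := QuotientGroup.nontrivial_iff.2 hNtop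
  obtain ⟨W, hW⟩ := Core.exists_isMinNormal (G := G ⧸ N)
  haveI := hW.1
  set π := QuotientGroup.mk' N
  have hπ : Function.Surjective π := QuotientGroup.mk'_surjective N
  set M := W.comap π with hM
  haveI : M.Normal := Subgroup.Normal.comap hW.1 _
  have hMW : M.map π = W := Subgroup.map_comap_eq_self_of_surjective hπ W
  have hNM : N ≤ M := fun x hx => by
    rw [hM, Subgroup.mem_comap]
    change (x : G ⧸ N) ∈ W
    rw [(QuotientGroup.eq_one_iff x).2 hx]
    exact W.one_mem
  have hcardW : N.relIndex M = Nat.card W := by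
    have := Subgroup.relIndex_ker (K := M) π
    rwa [QuotientGroup.ker_mk', hMW] at this
  have hW1 : 1 < Nat.card W := (Subgroup.one_lt_card_iff_ne_bot W).2 hW.2.1
  have hMidx : M.index < n := by
    rw [← hn, ← Subgroup.relIndex_mul_index hNM, hcardW]
    exact lt_mul_of_one_lt_left (Nat.pos_of_ne_zero Subgroup.index_ne_zero_of_finite) hW1
  obtain ⟨θ, e, hθ, he, hres, hbound⟩ := ih _ hMidx M rfl
  obtain ⟨⟨⟨hWc⟩⟩, r, hr, -, hWr⟩ := hW.elementaryAbelian inferInstance
  have hwc : ∀ x ∈ W, ∀ y ∈ W, x * y = y * x := fun x hx y hy =>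
    congrArg Subtype.val (hWc ⟨x, hx⟩ ⟨y, hy⟩)
  have hab : ⁅M, M⁆ ≤ N := Subgroup.commutator_le.2 fun a ha b hb => by
    rw [← QuotientGroup.eq_one_iff, ← QuotientGroup.mk'_apply, map_commutatorElement,
      commutatorElement_eq_one_iff_mul_comm]
    exact hwc _ ha _ hb
  have hchief : ∀ L : Subgroup G, L.Normal → N ≤ L → L ≤ M → L = N ∨ L = M := by
    intro L hL hNL hLM
    have hsat : (L.map π).comap π = L :=
      Subgroup.comap_map_eq_self (by rw [QuotientGroup.ker_mk']; exact hNL)
    rcases hW.2.2 (L.map π) (hL.map π hπ) (hMW ▸ Subgroup.map_mono hLM) with h | h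
    · left; rw [← hsat, h, MonoidHom.comap_bot, QuotientGroup.ker_mk']
    · right; rw [← hsat, h]
  have hinv : ∀ (g : G) (x : M),
      θ ⟨g * x * g⁻¹, (inferInstance : M.Normal).conj_mem (x : G) x.2 g⟩ = θ x := by
    intro g x
    have h : χ (g * x * g⁻¹) = χ x := Chars.isClassFunction_irr ⟨χ, hχ⟩ (x : G) g
    have h1 : χ (g * x * g⁻¹) =
        e * θ ⟨g * x * g⁻¹, (inferInstance : M.Normal).conj_mem (x : G) x.2 g⟩ :=
      hres ⟨g * x * g⁻¹, (inferInstance : M.Normal).conj_mem (x : G) x.2 g⟩
    rw [h, hres x] at h1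
    exact (mul_left_cancel₀ (Nat.cast_ne_zero.2 he) h1).symm
  rcases Chars2.going_down M N hNM hchief hab θ hθ hinv with h | ⟨φ, e', hφ, hθφ, he'⟩ |
      ⟨F, hF, hFcard, hθF⟩
  · exact ⟨_, e, h, he, fun x => hres ⟨x, hNM x.2⟩,
      hbound.trans (Nat.mul_le_mul_left 2 (classExpSum_anti p hNM))⟩
  · have hres' : ∀ x : N, χ x = ((e * e' : ℕ) : ℂ) * φ x := fun x => by
      rw [hres ⟨x, hNM x.2⟩, Nat.cast_mul, mul_assoc]
      exact congrArg _ (congrFun hθφ x)
    have he'0 : e' ≠ 0 := fun h => by rw [h, hcardW, zero_pow two_ne_zero] at he'; omega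
    refine ⟨φ, e * e', hφ, mul_ne_zero he he'0, hres', ?_⟩
    rw [Nat.factorization_mul he he'0, Finsupp.add_apply, mul_add]
    by_cases hpe : p ∣ e'
    swap
    · rw [Nat.factorization_eq_zero_of_not_dvd hpe, mul_zero, add_zero]
      exact hbound.trans (Nat.mul_le_mul_left 2 (classExpSum_anti p hNM))
    have hpW : p ∣ Nat.card W := by rw [← hcardW, ← he']; exact dvd_pow hpe (by norm_num)
    haveI := Fact.mk hr
    obtain ⟨k, hk⟩ := IsPGroup.iff_card.1 hWr
    have hpr : p = r := (Nat.prime_dvd_prime_iff_eq hp.out hr).1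
      (hp.out.dvd_of_dvd_pow (hk ▸ hpW))
    subst hpr
    have hd : 2 * e'.factorization p = (Nat.card W).factorization p := by
      rw [← hcardW, ← he', Nat.factorization_pow, Finsupp.smul_apply, smul_eq_mul]
    have hnc : ¬ W ≤ Subgroup.center (G ⧸ N) := by
      intro hcen
      have hsimple : ∀ V : Subgroup (G ⧸ N), V ≤ W → V = ⊥ ∨ V = W := fun V hV =>
        hW.2.2 V ⟨fun v hv g => by
          rw [Subgroup.mem_center_iff.1 (hcen (hV hv)) g, mul_inv_cancel_right]
          exact hv⟩ hV
      obtain ⟨x, hx⟩ := exists_prime_orderOf_dvd_card' p hpW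
      rcases hsimple (Subgroup.zpowers (x : G ⧸ N)) (Subgroup.zpowers_le.2 x.2) with h | h
      · rw [Subgroup.zpowers_eq_bot, OneMemClass.coe_eq_one] at h
        exact hp.out.ne_one (by rw [← hx, h, orderOf_one])
      · have hc : Nat.card W = p := by rw [← h, Nat.card_zpowers, Subgroup.orderOf_coe, hx]
        rw [hc, hp.out.factorization_self] at hd
        omega
    obtain ⟨a, ha⟩ := exists_small_fix hW hWr hnc
    obtain ⟨a0, rfl⟩ := hπ a
    set d := (Nat.card W).factorization p with hd'
    have hF : 4 * ∑ g : G, fixExp p W (π g) ≤ 3 * (Nat.card G * d) := by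
      have h1 : ∑ g : G, (fixExp p W (π g) + fixExp p W (π (g * a0))) ≤
          ∑ g : G, (d + fixExp p W (π a0)) := Finset.sum_le_sum fun g _ => by
        rw [map_mul]; exact fixExp_add_le hWr _ _
      have e1 : ∑ g : G, fixExp p W (π (g * a0)) = ∑ g : G, fixExp p W (π g) :=
        Equiv.sum_comp (Equiv.mulRight a0) (fun g => fixExp p W (π g))
      rw [Finset.sum_add_distrib, e1,
        Finset.sum_const, Finset.card_univ, ← Nat.card_eq_fintype_card, smul_eq_mul, mul_add] at h1
      have h2 := Nat.mul_le_mul_left (Nat.card G) ha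
      rw [mul_left_comm] at h2
      omega
    have hstep : ∑ g : G, (((centMod M g).index).factorization p + d) ≤
        ∑ g : G, (((centMod N g).index).factorization p + fixExp p W (π g)) :=
      Finset.sum_le_sum fun g _ => by
        have := index_centMod_step (N := N) (M := M) hNM g (hMW.symm ▸ hWr)
        rwa [hMW] at this
    rw [Finset.sum_add_distrib, Finset.sum_add_distrib, Finset.sum_const, Finset.card_univ,
      ← Nat.card_eq_fintype_card, smul_eq_mul] at hstep
    change classExpSum p M + _ ≤ classExpSum p N + _ at hstep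
    have hd2 : 2 * (Nat.card G * e'.factorization p) = Nat.card G * d := by
      rw [mul_left_comm, hd]
    omega
  · exfalso
    haveI : Fintype N := Fintype.ofFinite _
    have hcard : F.card ≠ 0 ∧ 1 < F.card := by
      rw [hFcard, hcardW]; exact ⟨Nat.card_pos.ne', hW1⟩
    have hres' : (fun x : N => χ x) = (e : ℂ) • ∑ φ ∈ F, φ := by
      rw [← hθF]; exact funext fun x => hres ⟨x, hNM x.2⟩
    have hinner : ∀ φ ∈ F, classInner (fun x : N => χ x) φ = e := fun φ hφ => by
      rw [hres', Chars.classInner_smul_left, Chars.classInner_sum_left,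
        Finset.sum_eq_single_of_mem φ hφ fun ψ hψ hne =>
          Chars.classInner_irr_of_ne (hF ψ hψ) (hF φ hφ) hne,
        Chars.classInner_self_irr (hF φ hφ), mul_one]
    obtain ⟨φ, hφ⟩ := Finset.card_pos.1 (Nat.pos_of_ne_zero hcard.1)
    have hne0 : ∀ φ ∈ F, classInner (fun x : N => χ x) φ ≠ 0 := fun ψ hψ => by
      rw [hinner ψ hψ]; exact Nat.cast_ne_zero.2 he
    have hinert := inertia_eq_top hχ hprim (hF φ hφ) (hne0 φ hφ)
    have hsub : F ⊆ {φ} := fun ψ hψ => by
      obtain ⟨g, hg⟩ := Chars2.clifford_constituent hχ (hF φ hφ) (hne0 φ hφ) (hF ψ hψ) (hne0 ψ hψ)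
      rw [Finset.mem_singleton, hg]
      exact Chars2.mem_inertiaSub.1 (hinert ▸ Subgroup.mem_top g)
    have := Finset.card_le_card hsub
    rw [Finset.card_singleton] at this
    omega

theorem exists_class_exp [Group.IsSolvable G] (hχ : IsIrrCharacter G χ)
    (hprim : ¬ ∃ (H : Subgroup G), H ≠ ⊤ ∧ ∃ θ : ↥H → ℂ, IsCharacter ↥H θ ∧ indFun H θ = χ) :
    ∃ g : G, (charDegree χ).factorization p ≤
      2 * ((Subgroup.centralizer ({g} : Set G)).index).factorization p := by
  classical
  obtain ⟨θ, e, hθ, -, hres, hbound⟩ := descends_all (p := p) hχ hprim (⊥ : Subgroup G)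
  have hθ1 : θ 1 = 1 := Chars.irr_apply_one_of_comm (fun a b => Subsingleton.elim _ _) hθ
  have hdeg : charDegree χ = e := by
    have h := hres 1
    rw [OneMemClass.coe_one, hθ1, mul_one] at h
    rw [charDegree, h, Complex.natCast_re, Nat.floor_natCast]
  rw [hdeg]
  by_contra hall
  push Not at hall
  have h1 : ∑ g : G, (2 * ((centMod (⊥ : Subgroup G) g).index).factorization p + 1) ≤
      ∑ _g : G, e.factorization p := Finset.sum_le_sum fun g _ => by
    rw [centMod_bot]; exact hall g
  rw [Finset.sum_add_distrib, ← Finset.mul_sum, Finset.sum_const, Finset.sum_const,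
    Finset.card_univ, ← Nat.card_eq_fintype_card, smul_eq_mul, smul_eq_mul, mul_one] at h1
  change 2 * classExpSum p (⊥ : Subgroup G) + _ ≤ _ at h1
  have : 0 < Nat.card G := Nat.card_pos
  omega

end Cfsg.Agent.ClassSize
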